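import Mathlib

/-!
# Weight spaces of elementary abelian 2-subgroups of general linear groups
-/

set_option autoImplicit false
set_option linter.unusedSectionVars false
set_option linter.unusedVariables false

namespace Cfsg.Agent.Lib.NormRank

open Matrix Module

variable {F : Type*} [Field F] {ι : Type*} [Fintype ι] [DecidableEq ι]

/-- The linear action of a matrix unit. -/
noncomputable def lin (g : GeneralLinearGroup ι F) : End F (ι → F) :=
  Matrix.toLin' (g : Matrix ι ι F)

theorem lin_apply (g : GeneralLinearGroup ι F) (v : ι → F) :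
    lin g v = (g : Matrix ι ι F) *ᵥ v := by
  simp [lin]

theorem lin_mul (g h : GeneralLinearGroup ι F) (v : ι → F) : lin (g * h) v = lin g (lin h v) := by
  simp [lin_apply, Matrix.mulVec_mulVec]

theorem lin_one (v : ι → F) : lin (1 : GeneralLinearGroup ι F) v = v := by
  simp [lin_apply]

theorem lin_inv_self (g : GeneralLinearGroup ι F) (v : ι → F) : lin g⁻¹ (lin g v) = v := by
  rw [← lin_mul, inv_mul_cancel, lin_one]

theorem lin_self_inv (g : GeneralLinearGroup ι F) (v : ι → F) : lin g (lin g⁻¹ v) = v := by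
  rw [← lin_mul, mul_inv_cancel, lin_one]

theorem lin_ext {g h : GeneralLinearGroup ι F} (H : ∀ v, lin g v = lin h v) : g = h := by
  apply Units.ext
  apply Matrix.toLin'.injective
  exact LinearMap.ext H

theorem lin_inj (g : GeneralLinearGroup ι F) {v w : ι → F} (H : lin g v = lin g w) : v = w := by
  have := congrArg (lin g⁻¹) H
  rwa [lin_inv_self, lin_inv_self] at this

/-- The simultaneous eigenspace of a subgroup with a given weight. -/
def wt (A : Subgroup (GeneralLinearGroup ι F)) (χ : ↥A → F) : Submodule F (ι → F) where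
  carrier := {v | ∀ t : ↥A, lin (t : GeneralLinearGroup ι F) v = χ t • v}
  add_mem' := by
    intro a b ha hb t
    rw [map_add, ha t, hb t, smul_add]
  zero_mem' := by
    intro t
    simp
  smul_mem' := by
    intro c a ha t
    rw [map_smul, ha t, smul_comm]

theorem mem_wt {A : Subgroup (GeneralLinearGroup ι F)} {χ : ↥A → F} {v : ι → F} :
    v ∈ wt A χ ↔ ∀ t : ↥A, lin (t : GeneralLinearGroup ι F) v = χ t • v := Iff.rfl

variable {A : Subgroup (GeneralLinearGroup ι F)}

theorem indep_wt (hc : ∀ a ∈ A, ∀ b ∈ A, a * b = b * a) : iSupIndep (wt A) := by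
  have h := Module.End.independent_iInf_maxGenEigenspace_of_forall_mapsTo
    (fun t : ↥A => lin (t : GeneralLinearGroup ι F)) (by
      intro i j φ
      refine Module.End.mapsTo_maxGenEigenspace_of_comm ?_ φ
      apply LinearMap.ext
      intro v
      show lin (j : GeneralLinearGroup ι F) (lin (i : GeneralLinearGroup ι F) v) =
        lin (i : GeneralLinearGroup ι F) (lin (j : GeneralLinearGroup ι F) v)
      rw [← lin_mul, ← lin_mul, hc _ j.2 _ i.2])
  refine h.mono ?_
  intro χ
  refine le_iInf fun t => ?_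
  intro v hv
  rw [Module.End.mem_maxGenEigenspace]
  refine ⟨1, ?_⟩
  have := mem_wt.1 hv t
  simp [this]

theorem sum_finrank_eq {V κ : Type*} [AddCommGroup V] [Module F V] [FiniteDimensional F V]
    {p : κ → Submodule F V} (hp : iSupIndep p) (s : Finset κ) :
    ∑ i ∈ s, finrank F (p i) = finrank F ↥(⨆ i ∈ s, p i) := by
  classical
  induction s using Finset.induction_on with
  | empty =>
    have : (⨆ i ∈ (∅ : Finset κ), p i) = ⊥ := by
      refine iSup_eq_bot.2 fun i => iSup_eq_bot.2 fun hi => ?_
      exact absurd hi (Finset.notMem_empty i)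
    rw [Finset.sum_empty, this, finrank_bot]
  | insert a s ha ih =>
    rw [Finset.sum_insert ha, ih, Finset.iSup_insert]
    have hd : Disjoint (p a) (⨆ i ∈ s, p i) := hp.disjoint_biSup (y := (s : Set κ)) (by simpa using ha)
    have h := Submodule.finrank_sup_add_finrank_inf_eq (p a) (⨆ i ∈ s, p i)
    rw [hd.eq_bot, finrank_bot, add_zero] at h
    exact h.symm

theorem sum_finrank_le {V κ : Type*} [AddCommGroup V] [Module F V] [FiniteDimensional F V]
    {p : κ → Submodule F V} (hp : iSupIndep p) (s : Finset κ) :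
    ∑ i ∈ s, finrank F (p i) ≤ finrank F V := by
  rw [sum_finrank_eq hp]
  exact Submodule.finrank_le _

/-- The vectors on which every element of `s` acts by `±1`. -/
def eigS (s : Finset (↥A)) : Set (ι → F) :=
  {v | ∀ t ∈ s, lin (t : GeneralLinearGroup ι F) v = v ∨ lin (t : GeneralLinearGroup ι F) v = -v}

theorem span_eigS [DecidableEq ↥A] (hc : ∀ a ∈ A, ∀ b ∈ A, a * b = b * a) (hi : ∀ a ∈ A, a * a = 1)
    (h2 : (2 : F) ≠ 0) (s : Finset (↥A)) : Submodule.span F (eigS s) = ⊤ := by
  induction s using Finset.induction_on with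
  | empty =>
    rw [eq_top_iff, ← Submodule.span_univ]
    apply Submodule.span_mono
    intro v _ t ht
    simp at ht
  | insert a s ha ih =>
    rw [eq_top_iff, ← ih, Submodule.span_le]
    intro v hv
    have hcomm : ∀ t : ↥A, ∀ w, lin (t : GeneralLinearGroup ι F) (lin (a : GeneralLinearGroup ι F) w) =
        lin (a : GeneralLinearGroup ι F) (lin (t : GeneralLinearGroup ι F) w) := by
      intro t w
      rw [← lin_mul, ← lin_mul, hc _ t.2 _ a.2]
    have haa : ∀ w, lin (a : GeneralLinearGroup ι F) (lin (a : GeneralLinearGroup ι F) w) = w := by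
      intro w
      rw [← lin_mul, hi _ a.2, lin_one]
    have h1 : v + lin (a : GeneralLinearGroup ι F) v ∈ eigS (insert a s) := by
      intro t ht
      rcases Finset.mem_insert.1 ht with rfl | hts
      · left
        rw [map_add, haa, add_comm]
      · rw [map_add, hcomm]
        rcases hv t hts with h | h <;> rw [h]
        · left
          rfl
        · right
          rw [map_neg, neg_add]
    have h3 : v - lin (a : GeneralLinearGroup ι F) v ∈ eigS (insert a s) := by
      intro t ht
      rcases Finset.mem_insert.1 ht with rfl | hts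
      · right
        rw [map_sub, haa, neg_sub]
      · rw [map_sub, hcomm]
        rcases hv t hts with h | h <;> rw [h]
        · left
          rfl
        · right
          rw [map_neg]
          abel
    have e : v = (2 : F)⁻¹ • (v + lin (a : GeneralLinearGroup ι F) v) +
        (2 : F)⁻¹ • (v - lin (a : GeneralLinearGroup ι F) v) := by
      rw [← smul_add]
      have : v + lin (a : GeneralLinearGroup ι F) v + (v - lin (a : GeneralLinearGroup ι F) v) = (2 : F) • v := by
        rw [two_smul]
        abel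
      rw [this, smul_smul, inv_mul_cancel₀ h2, one_smul]
    show v ∈ Submodule.span F (eigS (insert a s))
    rw [e]
    exact Submodule.add_mem _ (Submodule.smul_mem _ _ (Submodule.subset_span h1))
      (Submodule.smul_mem _ _ (Submodule.subset_span h3))

theorem iSup_wt [Finite ↥A] (hc : ∀ a ∈ A, ∀ b ∈ A, a * b = b * a) (hi : ∀ a ∈ A, a * a = 1)
    (h2 : (2 : F) ≠ 0) : ⨆ χ, wt A χ = ⊤ := by
  classical
  haveI : Fintype ↥A := Fintype.ofFinite _
  rw [eq_top_iff, ← span_eigS hc hi h2 Finset.univ, Submodule.span_le]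
  intro v hv
  refine Submodule.mem_iSup_of_mem (fun t => if lin (t : GeneralLinearGroup ι F) v = v then 1 else -1) ?_
  intro t
  rcases hv t (Finset.mem_univ _) with h | h
  · simp [h]
  · by_cases h3 : lin (t : GeneralLinearGroup ι F) v = v
    · simp [h3]
    · simp [h3, h]

/-- Every weight takes values `±1`. -/
theorem wt_sq {χ : ↥A → F} {v : ι → F} (hi : ∀ a ∈ A, a * a = 1) (hv : v ∈ wt A χ) (h0 : v ≠ 0) (t : ↥A) :
    χ t = 1 ∨ χ t = -1 := by
  have h1 : lin (t : GeneralLinearGroup ι F) (lin (t : GeneralLinearGroup ι F) v) = v := by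
    rw [← lin_mul, hi _ t.2, lin_one]
  rw [mem_wt.1 hv t, map_smul, mem_wt.1 hv t, smul_smul] at h1
  have h3 : (χ t * χ t - 1) • v = 0 := by
    rw [sub_smul, h1, one_smul, sub_self]
  have h4 : χ t * χ t - 1 = 0 := (smul_eq_zero.1 h3).resolve_right h0
  have h5 : (χ t - 1) * (χ t + 1) = 0 := by
    linear_combination h4
  rcases mul_eq_zero.1 h5 with h | h
  · left
    linear_combination h
  · right
    linear_combination h

/-- A bound on the order via the number of weights. -/
theorem card_le_weights [Finite ↥A] [Fintype (↥A → F)] [DecidablePred fun χ : ↥A → F => wt A χ ≠ ⊥]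
    (hc : ∀ a ∈ A, ∀ b ∈ A, a * b = b * a) (hi : ∀ a ∈ A, a * a = 1)
    (h2 : (2 : F) ≠ 0) :
    Nat.card ↥A ≤ 2 ^ (Finset.univ.filter fun χ : ↥A → F => wt A χ ≠ ⊥).card := by
  classical
  let R := Finset.univ.filter fun χ : ↥A → F => wt A χ ≠ ⊥
  let f : ↥A → (↥R → Bool) := fun t χ => decide ((χ : ↥A → F) t = 1)
  have hf : Function.Injective f := by
    intro t t' e
    apply Subtype.ext
    apply lin_ext
    have hle : ⨆ χ, wt A χ ≤ LinearMap.eqLocus (lin (t : GeneralLinearGroup ι F)) (lin (t' : GeneralLinearGroup ι F)) := by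
      refine iSup_le fun χ => ?_
      intro v hv
      show lin (t : GeneralLinearGroup ι F) v = lin (t' : GeneralLinearGroup ι F) v
      by_cases h0 : v = 0
      · rw [h0, map_zero, map_zero]
      · have hχ : χ ∈ R := by
          refine Finset.mem_filter.2 ⟨Finset.mem_univ _, ?_⟩
          intro hb
          rw [hb] at hv
          exact h0 ((Submodule.mem_bot F).1 hv)
        have h3 := congrFun e ⟨χ, hχ⟩
        have h4 : χ t = 1 ↔ χ t' = 1 := by
          simpa [f] using h3
        have h1 : (1 : F) ≠ -1 := by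
          intro h
          apply h2
          linear_combination h
        have h5 : χ t = χ t' := by
          rcases wt_sq hi hv h0 t with h6 | h6 <;> rcases wt_sq hi hv h0 t' with h7 | h7
          · rw [h6, h7]
          · exact absurd (h7 ▸ h4.1 h6) h1.symm
          · exact absurd (h6 ▸ h4.2 h7) h1.symm
          · rw [h6, h7]
        rw [mem_wt.1 hv t, mem_wt.1 hv t', h5]
    rw [iSup_wt hc hi h2] at hle
    intro v
    exact hle (Submodule.mem_top)
  have := Nat.card_le_card_of_injective f hf
  refine this.trans (le_of_eq ?_)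
  rw [Nat.card_eq_fintype_card, Fintype.card_fun, Fintype.card_bool, Fintype.card_coe]

/-- The order is bounded via any bound on the number of weight spaces. -/
theorem card_le_of_weights [Finite ↥A] (hc : ∀ a ∈ A, ∀ b ∈ A, a * b = b * a) (hi : ∀ a ∈ A, a * a = 1)
    (h2 : (2 : F) ≠ 0) [Finite F] (r : ℕ) (hR : ∀ R : Finset (↥A → F), (∀ χ ∈ R, wt A χ ≠ ⊥) → R.card ≤ r) :
    Nat.card ↥A ≤ 2 ^ r := by
  classical
  haveI : Fintype (↥A → F) := Fintype.ofFinite _
  refine (card_le_weights hc hi h2).trans (Nat.pow_le_pow_right (by norm_num) (hR _ ?_))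
  intro χ hχ
  exact (Finset.mem_filter.1 hχ).2

/-- The bound for all elementary abelian subgroups. -/
theorem upper_one [Finite ↥A] (hc : ∀ a ∈ A, ∀ b ∈ A, a * b = b * a) (hi : ∀ a ∈ A, a * a = 1)
    (h2 : (2 : F) ≠ 0) [Finite F] : Nat.card ↥A ≤ 2 ^ Fintype.card ι := by
  refine card_le_of_weights hc hi h2 _ ?_
  intro R hR
  have h1 := sum_finrank_le (F := F) (indep_wt hc) R
  rw [finrank_fintype_fun_eq_card] at h1
  refine le_trans ?_ h1
  rw [Finset.card_eq_sum_ones]
  refine Finset.sum_le_sum fun χ hχ => ?_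
  exact Submodule.one_le_finrank_iff.2 (hR χ hχ)

/-! ### Twisting by the normaliser -/

/-- The normaliser. -/
abbrev NN (A : Subgroup (GeneralLinearGroup ι F)) : Subgroup (GeneralLinearGroup ι F) :=
  Subgroup.normalizer (A : Set (GeneralLinearGroup ι F))

theorem conj_inv_mem (g : ↥(NN A)) (t : ↥A) :
    (g : GeneralLinearGroup ι F)⁻¹ * (t : GeneralLinearGroup ι F) * (g : GeneralLinearGroup ι F) ∈ A := by
  have h := (Subgroup.mem_normalizer_iff.1 ((NN A).inv_mem g.2) t).1 t.2
  simpa using h

/-- The twist of a weight. -/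
def tw (g : ↥(NN A)) (χ : ↥A → F) : ↥A → F := fun t => χ ⟨_, conj_inv_mem g t⟩

theorem tw_mul (g h : ↥(NN A)) (χ : ↥A → F) : tw (g * h) χ = tw g (tw h χ) := by
  funext t
  simp only [tw]
  congr 1
  apply Subtype.ext
  simp only [Subgroup.coe_mul, _root_.mul_inv_rev, mul_assoc]

theorem tw_one (χ : ↥A → F) : tw (1 : ↥(NN A)) χ = χ := by
  funext t
  simp only [tw]
  congr 1
  apply Subtype.ext
  simp

theorem tw_inj (g : ↥(NN A)) : Function.Injective (tw (F := F) g) := by
  intro χ χ' h
  have := congrArg (tw g⁻¹) h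
  rwa [← tw_mul, ← tw_mul, inv_mul_cancel, tw_one, tw_one] at this

theorem lin_tw (g : ↥(NN A)) {χ : ↥A → F} {v : ι → F} (hv : v ∈ wt A χ) :
    lin (g : GeneralLinearGroup ι F) v ∈ wt A (tw g χ) := by
  intro t
  have e : lin (t : GeneralLinearGroup ι F) (lin (g : GeneralLinearGroup ι F) v) =
      lin (g : GeneralLinearGroup ι F)
        (lin ((g : GeneralLinearGroup ι F)⁻¹ * (t : GeneralLinearGroup ι F) * (g : GeneralLinearGroup ι F)) v) := by
    rw [← lin_mul, ← lin_mul]
    congr 2
    group
  rw [e, mem_wt.1 hv ⟨_, conj_inv_mem g t⟩, map_smul]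
  rfl

/-- A cubic relation and `T⁸ = 1` force the orbits on the weights to have length at most two. -/
theorem orbit_two (hc : ∀ a ∈ A, ∀ b ∈ A, a * b = b * a) (T : ↥(NN A)) (hT8 : T ^ 8 = 1) (b₀ b₁ b₂ : F)
    (cubic : ∀ v, lin (T : GeneralLinearGroup ι F) (lin (T : GeneralLinearGroup ι F) (lin (T : GeneralLinearGroup ι F) v)) =
      b₂ • lin (T : GeneralLinearGroup ι F) (lin (T : GeneralLinearGroup ι F) v) +
        b₁ • lin (T : GeneralLinearGroup ι F) v + b₀ • v)
    {χ : ↥A → F} {u : ι → F} (hu : u ∈ wt A χ) (h0 : u ≠ 0) : tw T (tw T χ) = χ := by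
  by_contra hne
  let f : (↥A → F) → (↥A → F) := tw T
  have hinj : Function.Injective f := tw_inj T
  have h8 : ∀ χ', f (f (f (f (f (f (f (f χ'))))))) = χ' := by
    intro χ'
    simp only [f, ← tw_mul]
    have : T * (T * (T * (T * (T * (T * (T * T)))))) = T ^ 8 := by
      simp only [pow_succ, pow_zero, one_mul, mul_assoc]
    rw [this, hT8, tw_one]
  let χ₁ := f χ
  let χ₂ := f χ₁
  let χ₃ := f χ₂
  have hne' : χ₂ ≠ χ := hne
  have h01 : χ₁ ≠ χ := by
    intro e
    apply hne'
    show f χ₁ = χ
    rw [e]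
    exact e
  have h12 : χ₂ ≠ χ₁ := fun e => h01 (hinj e)
  have h23 : χ₃ ≠ χ₂ := fun e => h12 (hinj e)
  have h13 : χ₃ ≠ χ₁ := fun e => hne' (hinj e)
  have h03 : χ₃ ≠ χ := by
    intro e
    apply hne'
    have h3 : f (f (f χ)) = χ := e
    have h5 := h8 χ
    rw [h3, h3] at h5
    exact h5
  let c : Fin 4 → (↥A → F) := ![χ, χ₁, χ₂, χ₃]
  have hcinj : Function.Injective c := by
    intro i j h
    fin_cases i <;> fin_cases j <;> first
      | rfl
      | exact absurd h (by simpa [c] using hne'.symm)
      | exact absurd h (by simpa [c] using hne')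
      | exact absurd h (by simpa [c] using h01.symm)
      | exact absurd h (by simpa [c] using h01)
      | exact absurd h (by simpa [c] using h12.symm)
      | exact absurd h (by simpa [c] using h12)
      | exact absurd h (by simpa [c] using h23.symm)
      | exact absurd h (by simpa [c] using h23)
      | exact absurd h (by simpa [c] using h13.symm)
      | exact absurd h (by simpa [c] using h13)
      | exact absurd h (by simpa [c] using h03.symm)
      | exact absurd h (by simpa [c] using h03)
  have hind : iSupIndep (fun i => wt A (c i)) := (indep_wt hc).comp hcinj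
  let L := lin (T : GeneralLinearGroup ι F)
  have hL : ∀ v, L v = 0 → v = 0 := by
    intro v hv
    apply lin_inj (T : GeneralLinearGroup ι F)
    rw [map_zero]
    exact hv
  have hu1 : L u ∈ wt A χ₁ := lin_tw T hu
  have hu2 : L (L u) ∈ wt A χ₂ := lin_tw T hu1
  have hu3 : L (L (L u)) ∈ wt A χ₃ := lin_tw T hu2
  let x : Fin 4 → (ι → F) := ![u, L u, L (L u), L (L (L u))]
  have hli : LinearIndependent F x := by
    refine iSupIndep.linearIndependent (fun i => wt A (c i)) hind ?_ ?_
    · intro i
      fin_cases i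
      · exact hu
      · exact hu1
      · exact hu2
      · exact hu3
    · intro i
      fin_cases i
      · exact h0
      · exact fun e => h0 (hL _ e)
      · exact fun e => h0 (hL _ (hL _ e))
      · exact fun e => h0 (hL _ (hL _ (hL _ e)))
  have h4 := Fintype.linearIndependent_iff.1 hli ![b₀, b₁, b₂, -1] (by
    rw [Fin.sum_univ_four]
    have hcu := cubic u
    show b₀ • u + b₁ • L u + b₂ • L (L u) + (-1 : F) • L (L (L u)) = 0
    have e3 : L (L (L u)) = b₂ • L (L u) + b₁ • L u + b₀ • u := hcu
    rw [e3, neg_smul, one_smul]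
    abel) 3
  have h5 : (-1 : F) = 0 := h4
  exact one_ne_zero (neg_eq_zero.1 h5)

/-- On a line of weights, `T⁴` acts trivially. -/
theorem fix_of_line (hc : ∀ a ∈ A, ∀ b ∈ A, a * b = b * a) (T : ↥(NN A)) (hT8 : T ^ 8 = 1) (b₀ b₁ b₂ : F)
    (cubic : ∀ v, lin (T : GeneralLinearGroup ι F) (lin (T : GeneralLinearGroup ι F) (lin (T : GeneralLinearGroup ι F) v)) =
      b₂ • lin (T : GeneralLinearGroup ι F) (lin (T : GeneralLinearGroup ι F) v) +
        b₁ • lin (T : GeneralLinearGroup ι F) v + b₀ • v)
    (hroots : ∀ l : F, l ^ 4 = 1 → l ^ 2 = 1)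
    {χ : ↥A → F} {u : ι → F} (hu : u ∈ wt A χ) (h0 : u ≠ 0) (hdim : finrank F ↥(wt A χ) = 1) :
    lin ((T : GeneralLinearGroup ι F) ^ 4) u = u := by
  have horb := orbit_two hc T hT8 b₀ b₁ b₂ cubic hu h0
  let L := lin (T : GeneralLinearGroup ι F)
  have hu2 : L (L u) ∈ wt A χ := by
    have h := lin_tw T (lin_tw T hu)
    rwa [horb] at h
  obtain ⟨l, hl⟩ := (finrank_eq_one_iff_of_nonzero' (⟨u, hu⟩ : ↥(wt A χ))
    (fun e => h0 (congrArg Subtype.val e))).1 hdim ⟨L (L u), hu2⟩
  have hl' : L (L u) = l • u := (congrArg Subtype.val hl).symm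
  have hp : ∀ m v, lin ((T : GeneralLinearGroup ι F) ^ m) v = (L^[m]) v := by
    intro m v
    induction m generalizing v with
    | zero => simp [lin_one]
    | succ m ih =>
      rw [pow_succ, lin_mul, ih, Function.iterate_succ_apply]
  have h4 : L (L (L (L u))) = (l * l) • u := by
    rw [hl', map_smul, map_smul, hl', smul_smul]
  have h8 : L (L (L (L (L (L (L (L u))))))) = u := by
    have h1 := hp 8 u
    have h2 : (T : GeneralLinearGroup ι F) ^ 8 = 1 := by
      have := congrArg Subtype.val hT8
      simpa using this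
    rw [h2, lin_one] at h1
    exact h1.symm
  have h8' : L (L (L (L (L (L (L (L u))))))) = ((l * l) * (l * l)) • u := by
    rw [h4, map_smul, map_smul, map_smul, map_smul, h4, smul_smul]
  rw [h8'] at h8
  have h9 : (l ^ 4 - 1) • u = 0 := by
    rw [sub_smul, one_smul]
    have : l ^ 4 = (l * l) * (l * l) := by ring
    rw [this, h8, sub_self]
  have h10 : l ^ 4 = 1 := by
    have := (smul_eq_zero.1 h9).resolve_right h0
    linear_combination this
  have h11 := hroots l h10
  rw [hp 4 u]
  show L (L (L (L u))) = u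
  rw [h4]
  have : l * l = 1 := by
    rw [← pow_two]
    exact h11
  rw [this, one_smul]

/-- The main bound for subgroups normalised by a suitable element. -/
theorem upper_three [Finite ↥A] [Finite F] (hc : ∀ a ∈ A, ∀ b ∈ A, a * b = b * a) (hi : ∀ a ∈ A, a * a = 1)
    (h2 : (2 : F) ≠ 0) (T : ↥(NN A)) (hT8 : T ^ 8 = 1) (b₀ b₁ b₂ : F)
    (cubic : ∀ v, lin (T : GeneralLinearGroup ι F) (lin (T : GeneralLinearGroup ι F) (lin (T : GeneralLinearGroup ι F) v)) =
      b₂ • lin (T : GeneralLinearGroup ι F) (lin (T : GeneralLinearGroup ι F) v) +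
        b₁ • lin (T : GeneralLinearGroup ι F) v + b₀ • v)
    (hroots : ∀ l : F, l ^ 4 = 1 → l ^ 2 = 1) (w : ι → F) (hw : Fintype.card ι % 2 = 0 → w = 0)
    (hK : ∀ v, lin ((T : GeneralLinearGroup ι F) ^ 4) v = v → ∃ c : F, v = c • w) :
    Nat.card ↥A ≤ 2 ^ ((Fintype.card ι + 1) / 2) := by
  classical
  refine card_le_of_weights hc hi h2 _ ?_
  intro R hR
  have h1 := sum_finrank_le (F := F) (indep_wt hc) R
  rw [finrank_fintype_fun_eq_card] at h1
  let R₁ := R.filter (fun χ => finrank F ↥(wt A χ) = 1)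
  have hcount : 2 * R.card ≤ ∑ χ ∈ R, finrank F ↥(wt A χ) + R₁.card := by
    rw [Finset.card_filter, ← Finset.sum_add_distrib, mul_comm, Finset.card_eq_sum_ones, Finset.sum_mul]
    refine Finset.sum_le_sum fun χ hχ => ?_
    have h3 : 1 ≤ finrank F ↥(wt A χ) := Submodule.one_le_finrank_iff.2 (hR χ hχ)
    by_cases h4 : finrank F ↥(wt A χ) = 1
    · simp [h4]
    · simp only [h4, if_false]
      omega
  have hline : ∀ χ ∈ R₁, ∃ u : ι → F, u ∈ wt A χ ∧ u ≠ 0 ∧ ∃ c : F, u = c • w := by
    intro χ hχ
    have hχ' := Finset.mem_filter.1 hχ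
    obtain ⟨u, hu, hu0⟩ := Submodule.exists_mem_ne_zero_of_ne_bot (hR χ hχ'.1)
    exact ⟨u, hu, hu0, hK u (fix_of_line hc T hT8 b₀ b₁ b₂ cubic hroots hu hu0 hχ'.2)⟩
  have hR₁ : R₁.card ≤ Fintype.card ι % 2 := by
    rcases Nat.mod_two_eq_zero_or_one (Fintype.card ι) with h | h
    · rw [h]
      have : R₁ = ∅ := by
        apply Finset.eq_empty_of_forall_notMem
        intro χ hχ
        obtain ⟨u, _, hu0, c, hc'⟩ := hline χ hχ
        apply hu0
        rw [hc', hw h, smul_zero]
      rw [this, Finset.card_empty]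
    · rw [h]
      apply Finset.card_le_one.2
      intro a ha b hb
      by_contra hab
      obtain ⟨u, hu, hu0, c, hc'⟩ := hline a ha
      obtain ⟨u', hu', hu0', c', hc''⟩ := hline b hb
      have hc0 : c ≠ 0 := by
        rintro rfl
        apply hu0
        rw [hc', zero_smul]
      have e : u' = (c' * c⁻¹) • u := by
        rw [hc', hc'', smul_smul, mul_assoc, inv_mul_cancel₀ hc0, mul_one]
      have hu'a : u' ∈ wt A a := by
        rw [e]
        exact Submodule.smul_mem _ _ hu
      have hd := (indep_wt hc).pairwiseDisjoint hab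
      exact hu0' ((Submodule.disjoint_def.1 hd) u' hu'a hu')
  omega

end Cfsg.Agent.Lib.NormRank
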