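import Mathlib
import Cfsg.Agent.Lib.NormRank.Weights
import Cfsg.Agent.Lib.Perm.SlWrC
import Cfsg.Agent.Lib.TwoFusion.GL2Sylow

/-!
# Models for the normal 2-rank of general linear groups
-/

set_option autoImplicit false
set_option linter.unusedSectionVars false
set_option linter.unusedVariables false
set_option linter.unusedSimpArgs false

namespace Cfsg.Agent.Lib.NormRank

open Matrix Module Equiv Cfsg.Agent.Lib.Classical Cfsg.Agent.Lib.Perm.OmWr Cfsg.Agent.Lib.Perm.SlWr
open Cfsg.Agent.Lib.Misc19.SymSylow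

variable {F : Type*} [Field F]

/-! ### A normal subgroup from a model -/

theorem exists_normal_of_model {G' G : Type*} [Group G'] [Group G] [Finite G'] [Finite G] (Ψ : G' ≃* G)
    (P₀ : Sylow 2 G') (N₀ : Subgroup G') (hle : N₀ ≤ (P₀ : Subgroup G'))
    (hnorm : ∀ x ∈ (P₀ : Subgroup G'), ∀ y ∈ N₀, x * y * x⁻¹ ∈ N₀)
    (hcomm : ∀ x ∈ N₀, ∀ y ∈ N₀, x * y = y * x) (hinv : ∀ x ∈ N₀, x * x = 1) (S : Sylow 2 G) :
    ∃ E : Subgroup ↥(S : Subgroup G), E.Normal ∧ Cfsg.IsElementaryAbelian 2 E ∧ Nat.card ↥N₀ ≤ Nat.card ↥E := by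
  haveI : Fact (Nat.Prime 2) := ⟨Nat.prime_two⟩
  let P₁ : Sylow 2 G := Sylow.ofCard ((P₀ : Subgroup G').map Ψ.toMonoidHom) (by
    rw [Subgroup.card_map_of_injective Ψ.injective, P₀.card_eq_multiplicity, Nat.card_congr Ψ.toEquiv])
  obtain ⟨g, hg⟩ := MulAction.exists_smul_eq G P₁ S
  let ψ : G' →* G := (MulAut.conj g).toMonoidHom.comp Ψ.toMonoidHom
  have hψ : Function.Injective ψ := (MulAut.conj g).injective.comp Ψ.injective
  have hS1 : ∀ x ∈ (P₀ : Subgroup G'), ψ x ∈ (S : Subgroup G) := by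
    intro x hx
    rw [← hg, Sylow.coe_subgroup_smul]
    exact ⟨Ψ x, ⟨x, hx, rfl⟩, rfl⟩
  have hS2 : ∀ y ∈ (S : Subgroup G), ∃ x ∈ (P₀ : Subgroup G'), ψ x = y := by
    intro y hy
    rw [← hg, Sylow.coe_subgroup_smul] at hy
    obtain ⟨a, ⟨x, hx, rfl⟩, rfl⟩ := hy
    exact ⟨x, hx, rfl⟩
  let N₁ : Subgroup G := N₀.map ψ
  have hN₁ : N₁ ≤ (S : Subgroup G) := by
    rintro _ ⟨y, hy, rfl⟩
    exact hS1 y (hle hy)
  refine ⟨N₁.subgroupOf (S : Subgroup G), ⟨?_⟩, ⟨⟨⟨?_⟩⟩, ?_⟩, ?_⟩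
  · intro a ha s
    obtain ⟨y, hy, hya⟩ : (a : G) ∈ N₁ := Subgroup.mem_subgroupOf.1 ha
    obtain ⟨x, hx, hxs⟩ := hS2 s s.2
    apply Subgroup.mem_subgroupOf.2
    refine ⟨x * y * x⁻¹, hnorm x hx y hy, ?_⟩
    simp only [map_mul, map_inv, hxs, hya, Subgroup.coe_mul, InvMemClass.coe_inv]
  · rintro ⟨a, ha⟩ ⟨b, hb⟩
    apply Subtype.ext
    apply Subtype.ext
    obtain ⟨y, hy, hya⟩ : (a : G) ∈ N₁ := Subgroup.mem_subgroupOf.1 ha
    obtain ⟨x, hx, hxs⟩ : (b : G) ∈ N₁ := Subgroup.mem_subgroupOf.1 hb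
    show (a : G) * b = b * a
    rw [← hya, ← hxs, ← map_mul, ← map_mul, hcomm y hy x hx]
  · intro a ha
    apply Subtype.ext
    obtain ⟨y, hy, hya⟩ : (a : G) ∈ N₁ := Subgroup.mem_subgroupOf.1 ha
    show (a : G) ^ 2 = 1
    rw [← hya, pow_two, ← map_mul, hinv y hy, map_one]
  · apply le_of_eq
    rw [Nat.card_congr (Subgroup.subgroupOfEquivOfLe hN₁).toEquiv]
    exact (Subgroup.card_map_of_injective hψ).symm

/-! ### From the isometry group of the zero form to `GL` -/

/-- The isometry group of the zero form is the general linear group. -/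
noncomputable def toOGe {ι : Type} [Fintype ι] [DecidableEq ι] (Q : QuadraticForm F (ι → F)) (hQ : ∀ v, Q v = 0) :
    GeneralLinearGroup ι F ≃* OG Q where
  toFun := toOG Q hQ
  invFun := Subtype.val
  left_inv _ := rfl
  right_inv _ := Subtype.ext rfl
  map_mul' := map_mul _

/-- Reindexing general linear groups. -/
noncomputable def reind {ι ι' : Type} [Fintype ι] [DecidableEq ι] [Fintype ι'] [DecidableEq ι'] (e : ι' ≃ ι) :
    GeneralLinearGroup ι F ≃* GeneralLinearGroup ι' F :=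
  Units.mapEquiv (Matrix.reindexAlgEquiv F F e.symm).toRingEquiv.toMulEquiv

theorem coe_reind {ι ι' : Type} [Fintype ι] [DecidableEq ι] [Fintype ι'] [DecidableEq ι'] (e : ι' ≃ ι)
    (g : GeneralLinearGroup ι F) :
    ((reind e g : GeneralLinearGroup ι' F) : Matrix ι' ι' F) = (g : Matrix ι ι F).submatrix e e := rfl

theorem lin_reind {ι ι' : Type} [Fintype ι] [DecidableEq ι] [Fintype ι'] [DecidableEq ι'] (e : ι' ≃ ι)
    (g : GeneralLinearGroup ι F) (x : ι → F) :
    lin (reind e g) (x ∘ e) = (lin g x) ∘ e := by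
  rw [lin_apply, lin_apply, coe_reind, Matrix.submatrix_mulVec_equiv]
  congr 2
  funext a
  simp

/-! ### The element of order eight -/

/-- The properties of the element of order eight used in the upper bound. -/
def Good (par : Prop) {ι : Type*} [Fintype ι] [DecidableEq ι] (t : GeneralLinearGroup ι F) : Prop :=
  t ^ 8 = 1 ∧ (∃ b₀ b₁ b₂ : F, ∀ v, lin t (lin t (lin t v)) = b₂ • lin t (lin t v) + b₁ • lin t v + b₀ • v) ∧
    ∃ w : ι → F, (par → w = 0) ∧ ∀ v, lin (t ^ 4) v = v → ∃ c : F, v = c • w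

theorem Good.transfer {par : Prop} {ι ι' : Type*} [Fintype ι] [DecidableEq ι] [Fintype ι'] [DecidableEq ι']
    {t : GeneralLinearGroup ι F} {t' : GeneralLinearGroup ι' F} (φ : (ι → F) ≃ₗ[F] (ι' → F))
    (h : ∀ x, lin t' (φ x) = φ (lin t x)) (hg : Good par t) : Good par t' := by
  obtain ⟨h8, ⟨b₀, b₁, b₂, hc⟩, w, hw, hK⟩ := hg
  have hpow : ∀ (m : ℕ) x, lin (t' ^ m) (φ x) = φ (lin (t ^ m) x) := by
    intro m x
    induction m generalizing x with
    | zero => simp [lin_one]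
    | succ m ih => rw [pow_succ, pow_succ, lin_mul, lin_mul, h, ih]
  refine ⟨?_, ⟨b₀, b₁, b₂, ?_⟩, φ w, ?_, ?_⟩
  · apply lin_ext
    intro v
    obtain ⟨x, rfl⟩ := φ.surjective v
    rw [hpow, h8, lin_one, lin_one]
  · intro v
    obtain ⟨x, rfl⟩ := φ.surjective v
    rw [h, h, h, hc, map_add, map_add, map_smul, map_smul, map_smul]
  · intro hp
    rw [hw hp, map_zero]
  · intro v hv
    obtain ⟨x, rfl⟩ := φ.surjective v
    rw [hpow] at hv
    obtain ⟨c, rfl⟩ := hK x (φ.injective hv)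
    exact ⟨c, map_smul _ _ _⟩

/-- The linear equivalence of an invertible matrix. -/
noncomputable def linE {ι : Type*} [Fintype ι] [DecidableEq ι] (g : GeneralLinearGroup ι F) :
    (ι → F) ≃ₗ[F] (ι → F) :=
  LinearEquiv.ofLinear (lin g) (lin g⁻¹) (LinearMap.ext (lin_self_inv g)) (LinearMap.ext (lin_inv_self g))

theorem Good.conj {par : Prop} {ι : Type*} [Fintype ι] [DecidableEq ι]
    {t : GeneralLinearGroup ι F} (g : GeneralLinearGroup ι F) (hg : Good par t) : Good par (g * t * g⁻¹) := by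
  refine Good.transfer (linE g) ?_ hg
  intro x
  show lin (g * t * g⁻¹) (lin g x) = lin g (lin t x)
  rw [lin_mul, lin_inv_self, lin_mul]

theorem two_ne_zero_of_odd [Fintype F] (hq : Fintype.card F % 2 = 1) : (2 : F) ≠ 0 := by
  apply Ring.two_ne_zero
  intro h
  have := FiniteField.even_card_iff_char_two.1 h
  omega

theorem exists_rho [Fintype F] (hq : Fintype.card F % 4 = 3) :
    ∃ (ρ : GeneralLinearGroup (Fin 2) F) (β γ : F),
      (ρ : Matrix (Fin 2) (Fin 2) F) * ρ = β • (ρ : Matrix (Fin 2) (Fin 2) F) + γ • 1 ∧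
        (ρ : Matrix (Fin 2) (Fin 2) F) ^ 4 = -1 := by
  classical
  have h2 : (2 : F) ≠ 0 := two_ne_zero_of_odd (by omega)
  have hneg : ¬ IsSquare (-1 : F) := fun h => (FiniteField.isSquare_neg_one_iff.1 h) hq
  obtain ⟨x, y, hxy, hxy2⟩ : ∃ x y : F, x * x = y * y ∧ 2 * (x * y) = 1 := by
    by_cases hs : IsSquare (2⁻¹ : F)
    · obtain ⟨x, hx⟩ := hs
      refine ⟨x, x, rfl, ?_⟩
      rw [← hx, mul_inv_cancel₀ h2]
    · have h1 : IsSquare (-2⁻¹ : F) := by
        have hne : (-2⁻¹ : F) ≠ 0 := neg_ne_zero.2 (inv_ne_zero h2)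
        rw [← quadraticChar_one_iff_isSquare hne]
        have e : (-2⁻¹ : F) = -1 * 2⁻¹ := by ring
        rw [e, map_mul, quadraticChar_neg_one_iff_not_isSquare.2 hneg,
          quadraticChar_neg_one_iff_not_isSquare.2 hs]
        norm_num
      obtain ⟨x, hx⟩ := h1
      refine ⟨x, -x, by ring, ?_⟩
      have : 2 * (x * -x) = -(2 * (x * x)) := by ring
      rw [this, ← hx]
      field_simp
  let R : Matrix (Fin 2) (Fin 2) F := !![x, -y; y, x]
  have hRR : R * R = (2 * x) • R + (-(2 * (x * x))) • 1 := by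
    ext i j
    fin_cases i <;> fin_cases j <;>
      simp [R, Matrix.mul_apply, Fin.sum_univ_two, Matrix.one_apply] <;> first
        | ring1
        | linear_combination hxy
        | linear_combination (-1 : F) * hxy
  have hR2 : R * R = !![0, -1; 1, 0] := by
    ext i j
    fin_cases i <;> fin_cases j <;>
      simp [R, Matrix.mul_apply, Fin.sum_univ_two] <;> first
        | linear_combination hxy
        | linear_combination -hxy2
        | linear_combination hxy2
  have hR4 : R ^ 4 = -1 := by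
    have e : R ^ 4 = (R * R) * (R * R) := by
      simp only [pow_succ, pow_zero, one_mul, mul_assoc]
    rw [e, hR2]
    ext i j
    fin_cases i <;> fin_cases j <;>
      simp [Matrix.mul_apply, Fin.sum_univ_two]
  have hR8 : R * R ^ 7 = 1 := by
    have e : R * R ^ 7 = R ^ 4 * R ^ 4 := by
      rw [← pow_succ', ← pow_add]
    rw [e, hR4]
    simp
  have hR8' : R ^ 7 * R = 1 := by
    rw [← pow_succ, pow_succ', hR8]
  exact ⟨⟨R, R ^ 7, hR8, hR8'⟩, 2 * x, -(2 * (x * x)), hRR, hR4⟩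

section tau

variable {k c : ℕ}

theorem good_tau (h2 : (2 : F) ≠ 0) (hc : c = 0 ∨ c = 1) (ρ : GeneralLinearGroup (Fin 2) F) (β γ : F)
    (h1 : (ρ : Matrix (Fin 2) (Fin 2) F) * ρ = β • (ρ : Matrix (Fin 2) (Fin 2) F) + γ • 1)
    (h4 : (ρ : Matrix (Fin 2) (Fin 2) F) ^ 4 = -1) (W : QuadraticForm F (Fin 2 → F)) (hW : ∀ v, W v = 0)
    (U : QuadraticForm F (Fin c → F)) :
    Good (c = 0) ((mkEl (k := k) (fun _ => toOG W hW ρ) 1 (1 : OG U) : OG (QQ (k := k) W U)) :
      GeneralLinearGroup (II k (Fin c)) F) := by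
  set t : GeneralLinearGroup (II k (Fin c)) F :=
    ((mkEl (k := k) (fun _ => toOG W hW ρ) 1 (1 : OG U) : OG (QQ (k := k) W U)) :
      GeneralLinearGroup (II k (Fin c)) F) with ht
  let R : Matrix (Fin 2) (Fin 2) F := ρ
  have hL : ∀ v, lin t v = actL (fun _ => toOG W hW ρ) 1 (1 : OG U) v := fun v => by
    rw [lin_apply]
    exact oM_mkEl _ _ _ v
  have hpr : ∀ i v, pr i (lin t v) = R *ᵥ pr i v := fun i v => by
    rw [hL, pr_act, inv_one]
    rfl
  have hU : ∀ v, pU (lin t v) = pU v := fun v => by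
    rw [hL, pU_act]
    exact oM_one _
  have hRR : ∀ x : Fin 2 → F, R *ᵥ (R *ᵥ x) = β • (R *ᵥ x) + γ • x := by
    intro x
    rw [Matrix.mulVec_mulVec, h1, Matrix.add_mulVec, Matrix.smul_mulVec, Matrix.smul_mulVec, Matrix.one_mulVec]
  have hpow : ∀ (m : ℕ) v, (∀ i, pr i (lin (t ^ m) v) = (R ^ m) *ᵥ pr i v) ∧ pU (lin (t ^ m) v) = pU v := by
    intro m v
    induction m generalizing v with
    | zero =>
      refine ⟨fun i => ?_, ?_⟩
      · simp [lin_one]
      · simp [lin_one]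
    | succ m ih =>
      obtain ⟨h5, h6⟩ := ih (lin t v)
      refine ⟨fun i => ?_, ?_⟩
      · rw [pow_succ, lin_mul, h5, hpr, pow_succ, Matrix.mulVec_mulVec]
      · rw [pow_succ, lin_mul, h6, hU]
  have h4' : R ^ 4 = -1 := h4
  refine ⟨?_, ⟨-γ, γ - β, 1 + β, ?_⟩, mkV 0 1, ?_, ?_⟩
  · apply lin_ext
    intro v
    rw [lin_one]
    obtain ⟨h5, h6⟩ := hpow 8 v
    apply vec_ext
    · intro i
      rw [h5]
      have : R ^ 8 = 1 := by
        have e : R ^ 8 = R ^ 4 * R ^ 4 := by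
          rw [← pow_add]
        rw [e, h4']
        simp
      rw [this, Matrix.one_mulVec]
    · exact h6
  · intro v
    apply vec_ext
    · intro i
      simp only [map_add, map_smul, hpr]
      have hy := hRR (pr i v)
      have hyy := hRR (R *ᵥ pr i v)
      rw [hyy, hy]
      module
    · simp only [map_add, map_smul, hU]
      module
  · rintro rfl
    apply vec_ext
    · intro i
      rfl
    · funext i
      exact i.elim0
  · intro v hv
    obtain ⟨h5, h6⟩ := hpow 4 v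
    have hzero : ∀ i, pr i v = 0 := by
      intro i
      have h7 := h5 i
      rw [hv, h4', Matrix.neg_mulVec, Matrix.one_mulVec] at h7
      have h8 : (2 : F) • pr i v = 0 := by
        rw [two_smul]
        nth_rewrite 1 [h7]
        simp
      exact (smul_eq_zero.1 h8).resolve_left h2
    obtain ⟨a, ha⟩ : ∃ a : F, pU v = a • (1 : Fin c → F) := by
      rcases hc with rfl | rfl
      · exact ⟨0, by funext i; exact i.elim0⟩
      · refine ⟨pU v 0, ?_⟩
        funext i
        rw [Subsingleton.elim i 0]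
        simp
    refine ⟨a, ?_⟩
    apply vec_ext
    · intro i
      rw [hzero, map_smul]
      simp
    · rw [ha, map_smul]
      rfl

/-- The element of order eight in `GL_n(F)`. -/
theorem exists_good [Fintype F] (hq : Fintype.card F % 4 = 3) (n : ℕ) :
    ∃ t : GeneralLinearGroup (Fin n) F, Good (n % 2 = 0) t := by
  classical
  have h2 : (2 : F) ≠ 0 := two_ne_zero_of_odd (by omega)
  obtain ⟨ρ, β, γ, h1, h4⟩ := exists_rho hq
  let W : QuadraticForm F (Fin 2 → F) := 0
  let U : QuadraticForm F (Fin (n % 2) → F) := 0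
  have hW : ∀ v, W v = 0 := fun _ => rfl
  have hcard : Fintype.card (II (n / 2) (Fin (n % 2))) = n := by
    rw [Fintype.card_sum, Fintype.card_prod, Fintype.card_fin, Fintype.card_fin, Fintype.card_fin]
    omega
  let e : Fin n ≃ II (n / 2) (Fin (n % 2)) := Fintype.equivOfCardEq (by rw [Fintype.card_fin, hcard])
  have hg := good_tau (k := n / 2) h2 (Nat.mod_two_eq_zero_or_one n) ρ β γ h1 h4 W hW U
  refine ⟨reind e ((mkEl (k := n / 2) (fun _ => toOG W hW ρ) 1 (1 : OG U) : OG (QQ (k := n / 2) W U)) :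
    GeneralLinearGroup (II (n / 2) (Fin (n % 2))) F), Good.transfer (LinearEquiv.funCongrLeft F F e) ?_ hg⟩
  intro x
  exact lin_reind e _ x

end tau

end Cfsg.Agent.Lib.NormRank
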