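import Mathlib
import Cfsg.Agent.Lib.NormRank.Model

/-!
# Normal elementary abelian subgroups of Sylow 2-subgroups of general linear groups
-/

set_option autoImplicit false
set_option linter.unusedSectionVars false
set_option linter.unusedVariables false
set_option linter.unusedSimpArgs false

namespace Cfsg.Agent.Lib.NormRank

open Matrix Module Equiv Cfsg.Agent.Lib.Classical Cfsg.Agent.Lib.Perm.OmWr Cfsg.Agent.Lib.Perm.SlWr
open Cfsg.Agent.Lib.Misc19.SymSylow

variable {F : Type*} [Field F]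

/-- The wreath product model has a normal elementary abelian subgroup. -/
theorem lower_general [Fintype F] (h2 : (2 : F) ≠ 0) (hF : Odd (Fintype.card F)) (n k c : ℕ) (hn : n = 2 * k + c)
    (hc : c = 0 ∨ c = 1) (D₂ : Sylow 2 (GeneralLinearGroup (Fin 2) F)) (Z₂ : Subgroup (GeneralLinearGroup (Fin 2) F))
    (hZle : Z₂ ≤ (D₂ : Subgroup (GeneralLinearGroup (Fin 2) F)))
    (hZn : ∀ d ∈ (D₂ : Subgroup (GeneralLinearGroup (Fin 2) F)), ∀ x ∈ Z₂, d * x * d⁻¹ ∈ Z₂)
    (hZc : ∀ x ∈ Z₂, ∀ y ∈ Z₂, x * y = y * x) (hZi : ∀ x ∈ Z₂, x * x = 1)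
    (S : Sylow 2 (GeneralLinearGroup (Fin n) F)) :
    ∃ E : Subgroup ↥(S : Subgroup (GeneralLinearGroup (Fin n) F)), E.Normal ∧ Cfsg.IsElementaryAbelian 2 E ∧
      Nat.card ↥Z₂ ^ k * 2 ^ c ≤ Nat.card ↥E := by
  classical
  haveI : Fact (Nat.Prime 2) := ⟨Nat.prime_two⟩
  have hq3 : 3 ≤ Fintype.card F := by
    have h1 := Fintype.one_lt_card (α := F)
    obtain ⟨k, hk⟩ := hF
    omega
  let W : QuadraticForm F (Fin 2 → F) := 0
  let U : QuadraticForm F (Fin c → F) := 0
  have hW0 : ∀ v, W v = 0 := fun _ => rfl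
  have hU0 : ∀ v, U v = 0 := fun _ => rfl
  have hQ0 : ∀ v, QQ (k := k) W U v = 0 := by
    intro v
    rw [QQ_apply]
    simp [hW0, hU0]
  -- the block part
  let iW : GeneralLinearGroup (Fin 2) F ≃* OG W := toOGe W hW0
  let D : Sylow 2 (OG W) := Sylow.ofCard ((D₂ : Subgroup (GeneralLinearGroup (Fin 2) F)).map iW.toMonoidHom) (by
    rw [Subgroup.card_map_of_injective (f := iW.toMonoidHom) iW.injective, D₂.card_eq_multiplicity, Nat.card_congr iW.toEquiv])
  let Z : Subgroup (OG W) := Z₂.map iW.toMonoidHom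
  have hZD : Z ≤ (D : Subgroup (OG W)) := Subgroup.map_mono hZle
  have hZnorm : ∀ d ∈ (D : Subgroup (OG W)), ∀ x ∈ Z, d * x * d⁻¹ ∈ Z := by
    rintro _ ⟨d, hd, rfl⟩ _ ⟨x, hx, rfl⟩
    exact ⟨d * x * d⁻¹, hZn d hd x hx, by
      simp only [MulEquiv.coe_toMonoidHom, map_mul, map_inv]⟩
  have hZcomm : ∀ x ∈ Z, ∀ y ∈ Z, x * y = y * x := by
    rintro _ ⟨x, hx, rfl⟩ _ ⟨y, hy, rfl⟩
    show iW x * iW y = iW y * iW x
    rw [← map_mul, ← map_mul, hZc x hx y hy]
  have hZinv : ∀ x ∈ Z, x * x = 1 := by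
    rintro _ ⟨x, hx, rfl⟩
    show iW x * iW x = 1
    rw [← map_mul, hZi x hx, map_one]
  have hcardZ : Nat.card ↥Z = Nat.card ↥Z₂ := Subgroup.card_map_of_injective (f := iW.toMonoidHom) iW.injective
  -- the remaining part
  let neg : OG U := toOG U hU0 (-1)
  have hnegc : ∀ v : OG U, v * neg = neg * v := by
    intro v
    apply Subtype.ext
    apply Units.ext
    show (v : GeneralLinearGroup (Fin c) F).1 * (-1 : GeneralLinearGroup (Fin c) F).1 =
      (-1 : GeneralLinearGroup (Fin c) F).1 * (v : GeneralLinearGroup (Fin c) F).1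
    simp
  have hneg2 : neg * neg = 1 := by
    show toOG U hU0 (-1) * toOG U hU0 (-1) = 1
    rw [← map_mul, neg_mul_neg, one_mul, map_one]
  let Z' : Subgroup (OG U) := Subgroup.zpowers neg
  have hZ'p : IsPGroup 2 Z' := by
    rintro ⟨_, m, rfl⟩
    refine ⟨1, ?_⟩
    apply Subtype.ext
    show (neg ^ m) ^ 2 ^ 1 = 1
    rw [← zpow_natCast, ← _root_.zpow_mul, mul_comm, _root_.zpow_mul]
    simp [pow_two, hneg2]
  obtain ⟨E', hE'⟩ := hZ'p.exists_le_sylow
  have hZ'c : ∀ v : OG U, ∀ u ∈ Z', v * u = u * v := by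
    rintro v _ ⟨m, rfl⟩
    exact ((show Commute v neg from hnegc v).zpow_right m).eq
  have hZ'comm : ∀ x ∈ Z', ∀ y ∈ Z', x * y = y * x := fun x _ y hy => hZ'c x y hy
  have hZ'inv : ∀ x ∈ Z', x * x = 1 := by
    rintro _ ⟨m, rfl⟩
    show neg ^ m * neg ^ m = 1
    rw [← _root_.zpow_add, ← two_mul, _root_.zpow_mul, zpow_two, hneg2, _root_.one_zpow]
  have hcardZ' : 2 ^ c ≤ Nat.card ↥Z' := by
    rcases hc with rfl | rfl
    · exact Nat.card_pos
    · rw [Nat.card_zpowers]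
      have hne : neg ≠ 1 := by
        intro e
        have e1 : ((-1 : GeneralLinearGroup (Fin 1) F) : Matrix (Fin 1) (Fin 1) F) 0 0 =
            ((1 : GeneralLinearGroup (Fin 1) F) : Matrix (Fin 1) (Fin 1) F) 0 0 :=
          congrArg (fun g : OG U => ((g : GeneralLinearGroup (Fin 1) F) : Matrix (Fin 1) (Fin 1) F) 0 0) e
        have e2 : (-1 : F) = 1 := by simpa using e1
        apply h2
        linear_combination -e2
      have : orderOf neg = 2 := orderOf_eq_prime (by rw [pow_two, hneg2]) hne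
      rw [this]
      norm_num
  -- the wreath product
  obtain ⟨T, hTc, hTg⟩ := exists_genP_sym 2 k
  have hval : ∀ m : ℕ, (Nat.card (GeneralLinearGroup (Fin m) F)).factorization 2 = VV (Fintype.card F) m := by
    intro m
    rw [Matrix.card_GL_field]
    exact val_gl hF hq3 m
  have hcardII : Fintype.card (II k (Fin c)) = n := by
    rw [Fintype.card_sum, Fintype.card_prod, Fintype.card_fin, Fintype.card_fin, Fintype.card_fin, hn]
    ring
  let e₁ : Fin n ≃ II k (Fin c) := Fintype.equivOfCardEq (by rw [Fintype.card_fin, hcardII])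
  have hvQ : (Nat.card (OG (QQ (k := k) W U))).factorization 2 = VV (Fintype.card F) n := by
    rw [card_OG_zero _ hQ0, card_GL_reindex e₁.symm, hval]
  have hvW : (Nat.card (OG W)).factorization 2 = VV (Fintype.card F) 2 := by
    rw [card_OG_zero _ hW0, hval]
  have hvU : (Nat.card (OG U)).factorization 2 = VV (Fintype.card F) c := by
    rw [card_OG_zero _ hU0, hval]
  have hVn : VV (Fintype.card F) n = k * VV (Fintype.card F) 2 + padicValNat 2 k.factorial + VV (Fintype.card F) c := by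
    rcases hc with rfl | rfl
    · rw [hn, add_zero, VV_even hF hq3]
      simp [VV]
    · rw [hn, VV_odd hF hq3]
  have hcard : Nat.card (PO (D : Subgroup (OG W)) T (E' : Subgroup (OG U))) =
      2 ^ (Nat.card (OG (QQ (k := k) W U))).factorization 2 := by
    rw [card_PO, D.card_eq_multiplicity, E'.card_eq_multiplicity, hTc, hvQ, hvW, hvU, hVn, ← pow_mul, ← pow_add, ← pow_add]
    congr 1
    ring
  let P₀ : Sylow 2 (OG (QQ (k := k) W U)) := Sylow.ofCard _ hcard
  let N₀ : Subgroup (OG (QQ (k := k) W U)) := PO Z ⊥ Z'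
  have hP₀ : (P₀ : Subgroup (OG (QQ (k := k) W U))) = PO (D : Subgroup (OG W)) T (E' : Subgroup (OG U)) := rfl
  have hle : N₀ ≤ (P₀ : Subgroup (OG (QQ (k := k) W U))) := by
    rw [hP₀]
    rintro _ ⟨g, σ, u, hg, hσ, hu, rfl⟩
    exact ⟨g, σ, u, fun j => hZD (hg j), (bot_le : (⊥ : Subgroup _) ≤ T) hσ, hE' hu, rfl⟩
  have hnorm : ∀ x ∈ (P₀ : Subgroup (OG (QQ (k := k) W U))), ∀ y ∈ N₀, x * y * x⁻¹ ∈ N₀ := by
    rw [hP₀]
    rintro _ ⟨h, τ, v, hh, hτ, hv, rfl⟩ _ ⟨g, σ, u, hg, hσ, hu, rfl⟩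
    obtain rfl : σ = 1 := Subgroup.mem_bot.1 hσ
    rw [mkEl_inv, mkEl_mul, mkEl_mul]
    refine ⟨_, _, _, fun j => ?_, ?_, ?_, rfl⟩
    · exact hZnorm _ (hh _) _ (hg _)
    · rw [mul_one, mul_inv_cancel]
      exact Subgroup.one_mem _
    · rw [hZ'c v u hu, mul_inv_cancel_right]
      exact hu
  have hcomm : ∀ x ∈ N₀, ∀ y ∈ N₀, x * y = y * x := by
    rintro _ ⟨g, σ, u, hg, hσ, hu, rfl⟩ _ ⟨g', σ', u', hg', hσ', hu', rfl⟩
    obtain rfl : σ = 1 := Subgroup.mem_bot.1 hσ
    obtain rfl : σ' = 1 := Subgroup.mem_bot.1 hσ'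
    rw [mkEl_mul, mkEl_mul]
    have e1 : (fun j => g ((1 : Perm (Fin k)) j) * g' j) = (fun j => g' ((1 : Perm (Fin k)) j) * g j) :=
      funext fun j => hZcomm _ (hg j) _ (hg' j)
    rw [e1, hZ'comm u hu u' hu']
  have hinv : ∀ x ∈ N₀, x * x = 1 := by
    rintro _ ⟨g, σ, u, hg, hσ, hu, rfl⟩
    obtain rfl : σ = 1 := Subgroup.mem_bot.1 hσ
    rw [mkEl_mul]
    have e1 : (fun j => g ((1 : Perm (Fin k)) j) * g j) = (fun _ => 1) :=
      funext fun j => hZinv _ (hg j)
    rw [e1, hZ'inv u hu, mul_one, mkEl_one]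
  let Ψ : OG (QQ (k := k) W U) ≃* GeneralLinearGroup (Fin n) F :=
    (toOGe (QQ (k := k) W U) hQ0).symm.trans (reind e₁)
  haveI : Finite (OG (QQ (k := k) W U)) := inferInstance
  obtain ⟨E, hE, hE2, hE3⟩ := exists_normal_of_model Ψ P₀ N₀ hle hnorm hcomm hinv S
  refine ⟨E, hE, hE2, le_trans ?_ hE3⟩
  show _ ≤ Nat.card ↥(PO Z ⊥ Z')
  rw [card_PO, hcardZ, Subgroup.card_bot, mul_one]
  exact Nat.mul_le_mul_left _ hcardZ'

/-- The wreathed case. -/
theorem exists_Z_wreath {P : Type*} [Group P] [Finite P] (h : Cfsg.IsWreathed P) :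
    ∃ Z : Subgroup P, Z.Normal ∧ (∀ x ∈ Z, ∀ y ∈ Z, x * y = y * x) ∧ (∀ x ∈ Z, x * x = 1) ∧ 4 ≤ Nat.card ↥Z := by
  classical
  haveI : Fact (Nat.Prime 2) := ⟨Nat.prime_two⟩
  obtain ⟨m, hm, hcard, x, y, z, hx, hxy, hd, hz, hzx⟩ := h
  have hy : orderOf y = 2 ^ m := by
    rw [← hx, ← hzx]
    exact MulEquiv.orderOf_eq (MulAut.conj z) x
  let B : Subgroup P := Subgroup.zpowers x ⊔ Subgroup.zpowers y
  have hBz1 : Subgroup.zpowers x ≤ B := le_sup_left
  have hBz2 : Subgroup.zpowers y ≤ B := le_sup_right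
  have hcx : Commute x y := hxy
  -- `B` is abelian
  have hB1 : B ≤ Subgroup.centralizer ({x, y} : Set P) := by
    refine sup_le ?_ ?_
    · rw [Subgroup.zpowers_le, Subgroup.mem_centralizer_iff]
      rintro g (rfl | rfl)
      · rfl
      · exact hxy.symm
    · rw [Subgroup.zpowers_le, Subgroup.mem_centralizer_iff]
      rintro g (rfl | rfl)
      · exact hxy
      · rfl
  have hBc : ∀ a ∈ B, ∀ b ∈ B, a * b = b * a := by
    intro a ha b hb
    have h1 : B ≤ Subgroup.centralizer ({a} : Set P) := by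
      have h3 := Subgroup.mem_centralizer_iff.1 (hB1 ha)
      refine sup_le ?_ ?_
      · rw [Subgroup.zpowers_le, Subgroup.mem_centralizer_iff]
        rintro g rfl
        exact (h3 x (Or.inl rfl)).symm
      · rw [Subgroup.zpowers_le, Subgroup.mem_centralizer_iff]
        rintro g rfl
        exact (h3 y (Or.inr rfl)).symm
    exact Subgroup.mem_centralizer_iff.1 (h1 hb) a rfl
  -- order of `B`
  have hcardB : 2 ^ (2 * m) ≤ Nat.card ↥B := by
    let f : ↥(Subgroup.zpowers x) × ↥(Subgroup.zpowers y) → ↥B := fun p =>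
      ⟨p.1 * p.2, B.mul_mem (hBz1 p.1.2) (hBz2 p.2.2)⟩
    have hf : Function.Injective f := by
      rintro ⟨a, b⟩ ⟨a', b'⟩ e
      have e1 : (a : P) * b = a' * b' := congrArg Subtype.val e
      have e2 : (a' : P)⁻¹ * a = b' * (b : P)⁻¹ := by
        calc (a' : P)⁻¹ * a = (a' : P)⁻¹ * (a * b) * (b : P)⁻¹ := by group
          _ = (a' : P)⁻¹ * (a' * b') * (b : P)⁻¹ := by rw [e1]
          _ = b' * (b : P)⁻¹ := by group
      have h3 : (a' : P)⁻¹ * a ∈ Subgroup.zpowers x ⊓ Subgroup.zpowers y :=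
        ⟨Subgroup.mul_mem _ (Subgroup.inv_mem _ a'.2) a.2, by
          rw [e2]
          exact Subgroup.mul_mem _ b'.2 (Subgroup.inv_mem _ b.2)⟩
      rw [hd, Subgroup.mem_bot] at h3
      have h4 : (a : P) = a' := by
        have := congrArg (fun g => (a' : P) * g) h3
        simpa using this
      have h5 : (b : P) = b' := by
        rw [h4] at e1
        exact mul_left_cancel e1
      exact Prod.ext (Subtype.ext h4) (Subtype.ext h5)
    have h5 := Nat.card_le_card_of_injective f hf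
    rw [Nat.card_prod, Nat.card_zpowers, Nat.card_zpowers, hx, hy, ← pow_add, ← two_mul] at h5
    exact h5
  have hBn : B.Normal := by
    have h6 := B.card_mul_index
    rw [hcard] at h6
    have hidx : B.index = 1 ∨ B.index = 2 := by
      have hpos : 0 < B.index := Nat.pos_of_ne_zero (by
        intro h0
        rw [h0, mul_zero] at h6
        exact (pow_ne_zero _ (by norm_num)) h6.symm)
      have : B.index ≤ 2 := by
        by_contra hcon
        have h7 : 3 ≤ B.index := by omega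
        have h8 : 2 ^ (2 * m) * 3 ≤ Nat.card ↥B * B.index := Nat.mul_le_mul hcardB h7
        rw [h6, pow_succ] at h8
        have h9 : 0 < 2 ^ (2 * m) := by positivity
        omega
      omega
    rcases hidx with h7 | h7
    · rw [Subgroup.index_eq_one] at h7
      rw [h7]
      infer_instance
    · exact Subgroup.normal_of_index_eq_two h7
  let Z : Subgroup P :=
    { carrier := {a | a ∈ B ∧ a * a = 1}
      mul_mem' := by
        rintro a b ⟨ha, ha2⟩ ⟨hb, hb2⟩
        refine ⟨B.mul_mem ha hb, ?_⟩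
        calc a * b * (a * b) = a * (b * a) * b := by group
          _ = a * (a * b) * b := by rw [hBc b hb a ha]
          _ = (a * a) * (b * b) := by group
          _ = 1 := by rw [ha2, hb2, one_mul]
      one_mem' := ⟨B.one_mem, one_mul 1⟩
      inv_mem' := by
        rintro a ⟨ha, ha2⟩
        refine ⟨B.inv_mem ha, ?_⟩
        rw [← _root_.mul_inv_rev, ha2, inv_one] }
  have hZ_mem : ∀ a, a ∈ Z ↔ a ∈ B ∧ a * a = 1 := fun a => Iff.rfl
  refine ⟨Z, ⟨?_⟩, ?_, ?_, ?_⟩
  · rintro a ⟨ha, ha2⟩ g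
    refine ⟨hBn.conj_mem a ha g, ?_⟩
    calc g * a * g⁻¹ * (g * a * g⁻¹) = g * (a * a) * g⁻¹ := by group
      _ = 1 := by rw [ha2]; group
  · rintro a ⟨ha, _⟩ b ⟨hb, _⟩
    exact hBc a ha b hb
  · rintro a ⟨_, ha2⟩
    exact ha2
  · -- three distinct elements in a 2-group
    have hm1 : m = (m - 1) + 1 := by omega
    let a := x ^ 2 ^ (m - 1)
    let b := y ^ 2 ^ (m - 1)
    have ha2 : a * a = 1 := by
      show x ^ 2 ^ (m - 1) * x ^ 2 ^ (m - 1) = 1
      rw [← pow_add, ← two_mul, ← pow_succ', ← hm1, ← hx, pow_orderOf_eq_one]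
    have hb2 : b * b = 1 := by
      show y ^ 2 ^ (m - 1) * y ^ 2 ^ (m - 1) = 1
      rw [← pow_add, ← two_mul, ← pow_succ', ← hm1, ← hy, pow_orderOf_eq_one]
    have ha1 : a ≠ 1 := by
      intro e
      have h3 := orderOf_dvd_of_pow_eq_one e
      rw [hx] at h3
      have h4 := Nat.le_of_dvd (by positivity) h3
      have h5 : 2 ^ (m - 1) < 2 ^ m := Nat.pow_lt_pow_right (by norm_num) (by omega)
      omega
    have hb1 : b ≠ 1 := by
      intro e
      have h3 := orderOf_dvd_of_pow_eq_one e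
      rw [hy] at h3
      have h4 := Nat.le_of_dvd (by positivity) h3
      have h5 : 2 ^ (m - 1) < 2 ^ m := Nat.pow_lt_pow_right (by norm_num) (by omega)
      omega
    have hab : a ≠ b := by
      intro e
      have h3 : a ∈ Subgroup.zpowers x ⊓ Subgroup.zpowers y :=
        ⟨Subgroup.pow_mem _ (Subgroup.mem_zpowers x) _, by
          rw [e]
          exact Subgroup.pow_mem _ (Subgroup.mem_zpowers y) _⟩
      rw [hd, Subgroup.mem_bot] at h3
      exact ha1 h3
    have haZ : a ∈ Z := ⟨hBz1 (Subgroup.pow_mem _ (Subgroup.mem_zpowers x) _), ha2⟩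
    have hbZ : b ∈ Z := ⟨hBz2 (Subgroup.pow_mem _ (Subgroup.mem_zpowers y) _), hb2⟩
    have h3 : 3 ≤ Nat.card ↥Z := by
      let f : Fin 3 → ↥Z := ![1, ⟨a, haZ⟩, ⟨b, hbZ⟩]
      have hf : Function.Injective f := by
        intro i j e
        have e' : ((f i : ↥Z) : P) = f j := congrArg Subtype.val e
        fin_cases i <;> fin_cases j <;> first
          | rfl
          | exact absurd e'.symm ha1
          | exact absurd e' ha1
          | exact absurd e'.symm hb1
          | exact absurd e' hb1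
          | exact absurd e' hab
          | exact absurd e'.symm hab
      have := Nat.card_le_card_of_injective f hf
      simpa using this
    have hpg : IsPGroup 2 ↥Z := by
      rintro ⟨g, hg⟩
      refine ⟨1, ?_⟩
      apply Subtype.ext
      show g ^ 2 ^ 1 = 1
      rw [pow_one, pow_two]
      exact hg.2
    obtain ⟨j, hj⟩ := IsPGroup.iff_card.1 hpg
    rw [hj] at h3 ⊢
    rcases j with _ | _ | j
    · norm_num at h3
    · norm_num at h3
    · rw [pow_succ, pow_succ]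
      have : 1 ≤ 2 ^ j := Nat.one_le_two_pow
      omega

/-- Elements of a subgroup normalise its normal subgroups. -/
theorem conj_mem_map {G : Type*} [Group G] (S : Subgroup G) (E : Subgroup ↥S) (hE : E.Normal) (T : G) (hT : T ∈ S) :
    T ∈ Subgroup.normalizer ((E.map S.subtype : Subgroup G) : Set G) := by
  rw [Subgroup.mem_normalizer_iff]
  intro h
  constructor
  · rintro ⟨a, ha, rfl⟩
    exact ⟨⟨T, hT⟩ * a * ⟨T, hT⟩⁻¹, hE.conj_mem a ha _, rfl⟩
  · rintro ⟨b, hb, e⟩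
    refine ⟨⟨T, hT⟩⁻¹ * b * ⟨T, hT⟩, ?_, ?_⟩
    · have := hE.conj_mem b hb (⟨T, hT⟩⁻¹)
      simpa using this
    · have e' : (b : G) = T * h * T⁻¹ := e
      show T⁻¹ * (b : G) * T = h
      rw [e']
      group

/-- An element of order dividing eight has a conjugate in each Sylow 2-subgroup. -/
theorem exists_conj_mem {G : Type*} [Group G] [Finite G] (t : G) (h8 : t ^ 8 = 1) (S : Sylow 2 G) :
    ∃ g : G, g * t * g⁻¹ ∈ (S : Subgroup G) := by
  haveI : Fact (Nat.Prime 2) := ⟨Nat.prime_two⟩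
  have hp : IsPGroup 2 ↥(Subgroup.zpowers t) := by
    rintro ⟨_, m, rfl⟩
    refine ⟨3, ?_⟩
    apply Subtype.ext
    show (t ^ m) ^ 2 ^ 3 = 1
    rw [← zpow_natCast, ← _root_.zpow_mul, mul_comm, _root_.zpow_mul]
    have : (t ^ (((2 ^ 3 : ℕ) : ℤ))) = 1 := by
      rw [zpow_natCast]
      exact h8
    rw [this, _root_.one_zpow]
  obtain ⟨P, hP⟩ := hp.exists_le_sylow
  obtain ⟨g, hg⟩ := MulAction.exists_smul_eq G P S
  refine ⟨g, ?_⟩
  rw [← hg, Sylow.coe_subgroup_smul]
  exact ⟨t, hP (Subgroup.mem_zpowers t), rfl⟩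

/-- The upper bound from a good element in the normaliser. -/
theorem upper_of_good {n : ℕ} [Finite F] {A : Subgroup (GeneralLinearGroup (Fin n) F)} [Finite ↥A]
    (hc : ∀ a ∈ A, ∀ b ∈ A, a * b = b * a) (hi : ∀ a ∈ A, a * a = 1) (h2 : (2 : F) ≠ 0)
    (T : GeneralLinearGroup (Fin n) F) (hT : T ∈ NN A) (hg : Good (n % 2 = 0) T)
    (hroots : ∀ l : F, l ^ 4 = 1 → l ^ 2 = 1) : Nat.card ↥A ≤ 2 ^ ((n + 1) / 2) := by
  obtain ⟨hT8, ⟨b₀, b₁, b₂, hcub⟩, w, hw, hK⟩ := hg
  have hres := upper_three hc hi h2 (⟨T, hT⟩ : ↥(NN A)) (Subtype.ext hT8) b₀ b₁ b₂ hcub hroots w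
    (by
      intro h
      rw [Fintype.card_fin] at h
      exact hw h)
    hK
  rwa [Fintype.card_fin] at hres

end Cfsg.Agent.Lib.NormRank
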